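import Cfsg.Agent.H378.WL.Tool
import Cfsg.Agent.H378.Eng.E6Dat

/-!
# S3509, W-lemma for `E₆` and `²E₆` (helper378)

Every element `w` of `W(E₆)` stabilises a subsystem of type `D₅`, `A₅` or `D₄` or `1 + w³ + w⁶ = 0` (class `E₆(a₁)`).
`-1` preserves all these sets, so the same holds for `-w`, i.e. for `w ∘ g`, `g` the graph automorphism.
-/

set_option autoImplicit false
set_option linter.unusedSectionVars false

namespace Cfsg.Agent.H378.WL.E6

open CoxeterSystem Cfsg Cfsg.Lie Cfsg.Lie.ChevalleyDatum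
open Cfsg.Agent.ChevalleyStructure Cfsg.Agent.ChevalleyStructure.Elts Cfsg.Agent.ChevalleyStructure.CoxeterGeom
  Cfsg.Agent.ChevalleyStructure.CoxeterGeomTypes Cfsg.Agent.ChevalleyStructure.NPerm
open Cfsg.Agent.Tits.Roots Cfsg.Agent.Tits.Core Cfsg.Agent.Nodes Cfsg.Agent.Nodes.Reps Cfsg.Agent.Nodes.RGDChev
open Cfsg.Agent.H378.Eng Cfsg.Agent.H165.WL
open Cfsg.Agent.H378.E6Dat (dat)

theorem row : RowOK (cartanOf chevE6 6) dat := by
  unfold RowOK
  decide +kernel

theorem chkN : nrm dat = true := by decide +kernel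

theorem full : conn dat (List.range dat.rts.length) 35 = true := by decide +kernel

theorem top : vec chevE6 6 (chevE6.nroots - 1) = toF 6 (dat.gam 35) := by decide +kernel

/-- the conditions for the 25 classes -/
def cds : List Cd :=
  [[([1, 0, 0, 0, 0, 0], 2)], [([0, 1, 1, 0, 0, 0], 2)], [([0, 0, 1, 1, 0, 0], 2)], [([0, 1, 0, 0, 1, 0], 2)],
    [([0, 0, 0, 1, 1, 0], 2)], [([0, 0, 1, 1, 0, 0], 2)], [([0, 0, 1, 1, 0, 0], 2)], [([0, 0, 0, 0, 0, 1], 2)],
    [([0, 0, 0, 0, 0, 1], 2)], [([0, 0, 0, 0, 0, 1], 2)], [([0, 0, 0, -1, 2, -1], 0)], [([0, 0, 1, 1, 0, 0], 2)],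
    [([0, 0, 1, 1, 0, 0], 2)], [([0, 0, 1, 1, 0, 0], 2)], [([0, 0, 0, 0, 0, 1], 2)], [([0, 0, 0, 0, -1, 2], 0)],
    [([0, 0, 0, 0, 0, 1], 2)], [([0, 0, 0, 0, -1, 2], 0)], [([0, 2, 0, -1, 0, 0], 0)], [([0, 0, 0, 0, 0, 1], 2)],
    [([1, 0, 0, 1, 1, 0], 2), ([0, 0, 1, 1, 0, 1], 2)], [], [([0, 0, 0, 0, -1, 2], 0)],
    [([1, 1, 1, 1, 0, 0], 2), ([0, 1, 0, 0, 1, 0], 2)], [([1, 0, 0, 0, 0, 0], 2), ([0, 1, 1, 0, 0, 0], 2)]]

/-- one class -/
def ck (i : ℕ) : Bool :=
  let C := cds.getD i []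
  let S := sel dat C
  (C.all fun c => c.1.length ≤ 6) && conn dat S (S.getLastD 0) && S.all fun r => okB C (lc (dat.gam r) (dat.R i))

/-- the class `E₆(a₁)` -/
def nine (R : List Vc) : Bool := (List.range 6).all fun k =>
  let x := lc (lc (lc (bv k) R) R) R
  let y := lc (lc (lc x R) R) R
  veq (vadd (bv k) (vadd x y)) []

theorem all_ck : ((List.range 25).all fun i => (i == 21 && nine (dat.R i)) || ck i) = true := by decide +kernel

variable {M : CoxeterMatrix (Fin 6)} (hp : IsType chevE6 6 M) {W : Type*} [Group W] (cs : CoxeterSystem M W)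

/-- **W-lemma for `E₆`** -/
theorem exists_psi (w : W) : (∃ Ψ, PsiSet hp cs (fun v => rep cs hp.isCartan w v) Ψ) ∨
    ∀ x, x + rep cs hp.isCartan (w ^ 3) x + rep cs hp.isCartan (w ^ 6) x = 0 := by
  obtain ⟨v, i, hi, hv⟩ := exists_conj cs hp.isCartan (T := dat) rfl row E6Dat.chkR E6Dat.chkC w
  have hi' : i < 25 := hi
  have h1 := all_ck
  rw [List.all_eq_true] at h1
  have h2 := h1 i (List.mem_range.2 hi')
  rw [Bool.or_eq_true] at h2
  have hlen : (dat.R i).length ≤ 6 := by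
    have h3 : (List.range 25).all (fun i => decide ((dat.R i).length ≤ 6)) = true := by decide +kernel
    rw [List.all_eq_true] at h3
    simpa using h3 i (List.mem_range.2 hi')
  rcases h2 with h2 | h2
  · right
    rw [Bool.and_eq_true] at h2
    have h3 := h2.2
    unfold nine at h3
    rw [List.all_eq_true] at h3
    -- the powers
    have pw : ∀ (n : ℕ) (x : Fin 6 → ℤ), rep cs hp.isCartan v (rep cs hp.isCartan (w ^ n) (rep cs hp.isCartan v⁻¹ x)) =
        (lin 6 (dat.R i))^[n] x := by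
      intro n
      induction n with
      | zero => intro x; rw [pow_zero, map_one, Module.End.one_apply, rep_apply_inv]; rfl
      | succ n ih =>
        intro x
        rw [Function.iterate_succ_apply, ← ih, ← hv, pow_succ, rep_mul_apply, rep_inv_apply]
    have key : ∀ x : Fin 6 → ℤ, x + (lin 6 (dat.R i))^[3] x + (lin 6 (dat.R i))^[6] x = 0 := by
      intro x
      have h4 := hom_ext (φ := (AddMonoidHom.id (Fin 6 → ℤ)) +
          ((lin 6 (dat.R i)).comp ((lin 6 (dat.R i)).comp (lin 6 (dat.R i)))) +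
          ((lin 6 (dat.R i)).comp ((lin 6 (dat.R i)).comp ((lin 6 (dat.R i)).comp ((lin 6 (dat.R i)).comp
            ((lin 6 (dat.R i)).comp (lin 6 (dat.R i)))))))) (ψ := 0) (fun j => ?_) x
      · exact h4
      · have h5 := toF_veq (l := 6) (h3 j (List.mem_range.2 j.2))
        simp only [toF_vadd, toF_nil, ← lin_toF hlen, toF_bv] at h5
        rw [← add_assoc] at h5
        exact h5
    intro x
    have h4 := key (rep cs hp.isCartan v x)
    rw [← pw 3, ← pw 6, rep_inv_apply, ← map_add, ← map_add] at h4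
    have h5 := congrArg (rep cs hp.isCartan v⁻¹) h4
    rwa [rep_inv_apply, map_zero] at h5
  · left
    unfold ck at h2
    simp only [Bool.and_eq_true] at h2
    obtain ⟨⟨h3, h4⟩, h5⟩ := h2
    set C := cds.getD i [] with hC
    have hC' : ∀ c ∈ C, c.1.length ≤ 6 := by
      rw [List.all_eq_true] at h3
      intro c hc
      simpa using h3 c hc
    rw [List.all_eq_true] at h5
    have hst : ∀ x : Fin 6 → ℤ, IsRoot cs hp.isCartan x → InC 6 C x → InC 6 C (lin 6 (dat.R i) x) := by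
      intro x hx hxC
      obtain ⟨b, hb, h6⟩ := exists_gam' cs hp.isCartan (T := dat) rfl row E6Dat.chkR hx
      obtain ⟨r, hr, e1, -⟩ := exists_lt_of_mem hb
      rw [← e1] at h6
      have hr' : InC 6 C (toF 6 (dat.gam r)) := by
        rcases h6 with rfl | rfl
        · exact hxC
        · have := hxC.neg
          rwa [neg_neg] at this
      have hs : r ∈ sel dat C := by
        unfold sel
        rw [List.mem_filter, List.mem_range, okB_iff hC']
        exact ⟨hr, hr'⟩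
      have h7 := (okB_iff hC' _).1 (h5 r hs)
      rw [← lin_toF hlen] at h7
      rcases h6 with rfl | rfl
      · exact h7
      · rw [map_neg]
        exact h7.neg
    have hroot : ∀ x : Fin 6 → ℤ, IsRoot cs hp.isCartan x → IsRoot cs hp.isCartan (lin 6 (dat.R i) x) := by
      intro x hx
      rw [← hv]
      exact ((hx.act v⁻¹).act w).act v
    have hps := psiSet hp cs rfl row E6Dat.chkR chkN full top hC' h4 (θ := fun x => lin 6 (dat.R i) x)
      fun x hx hxC => ⟨hroot x hx, hst x hx hxC⟩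
    refine ⟨_, (hps.conj v⁻¹).mono fun x _ => ?_⟩
    show rep cs hp.isCartan w x = rep cs hp.isCartan v⁻¹ (lin 6 (dat.R i) (rep cs hp.isCartan v⁻¹⁻¹ x))
    rw [← hv, inv_inv, rep_inv_apply, rep_inv_apply]

/-- `-1` -/
theorem psiSet_neg {D : ChevalleyDatum} {l : ℕ} {M : CoxeterMatrix (Fin l)} {hp : IsType D l M}
    {W : Type*} [Group W] {cs : CoxeterSystem M W} {θ : (Fin l → ℤ) → (Fin l → ℤ)} {Ψ : Set (Fin l → ℤ)}
    (h : PsiSet hp cs θ Ψ) : PsiSet hp cs (fun v => -θ v) Ψ :=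
  { h with stable := fun v hv => h.neg _ (h.stable v hv) }

/-- the permutation of the fundamental roots -/
def pm : Fin 6 → Fin 6 := ![5, 1, 4, 3, 2, 0]

/-- the longest element acts as minus the graph automorphism -/
theorem exists_w0 : ∃ w₀ : W, ∀ (v : Fin 6 → ℤ) (i : Fin 6), rep cs hp.isCartan w₀ v i = -v (pm i) := by
  obtain ⟨w₀, h⟩ := exists_word cs hp.isCartan (T := dat) rfl row E6Dat.chkR [1, 23, 29, 33] (by decide +kernel)
  refine ⟨w₀, fun v i => ?_⟩
  have h1 : ∀ k : Fin 6, veq (dat.wd [1, 23, 29, 33] (bv k)) (vsm (-1) (bv (pm k))) = true := by decide +kernel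
  have h2 : ∀ i k : Fin 6, -1 * (bv (pm k)).getD i 0 = -((bv k).getD (pm i) 0) := by decide +kernel
  have h3 := hom_ext (φ := (Pi.evalAddMonoidHom (fun _ : Fin 6 => ℤ) i).comp (rep cs hp.isCartan w₀).toAddMonoidHom)
    (ψ := -(Pi.evalAddMonoidHom (fun _ : Fin 6 => ℤ) (pm i))) (fun k => ?_) v
  · exact h3
  · show rep cs hp.isCartan w₀ (Pi.single k 1) i = -((Pi.single k 1 : Fin 6 → ℤ) (pm i))
    rw [← toF_bv, h, toF_veq (h1 k), toF_vsm]
    exact h2 i k

/-- **W-lemma for `²E₆`**: `θ = rep w ∘ g` -/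
theorem exists_psi_right {g : (Fin 6 → ℤ) → (Fin 6 → ℤ)} (hg : ∀ v i, g v i = v (pm i)) (w : W) :
    (∃ Ψ, PsiSet hp cs (fun v => rep cs hp.isCartan w (g v)) Ψ) ∨
      ∃ u : W, (∀ v, rep cs hp.isCartan w (g v) = -rep cs hp.isCartan u v) ∧
        ∀ x, x + rep cs hp.isCartan (u ^ 3) x + rep cs hp.isCartan (u ^ 6) x = 0 := by
  obtain ⟨w₀, h0⟩ := exists_w0 hp cs
  have h1 : ∀ v, g v = -rep cs hp.isCartan w₀ v := by
    intro v
    funext i
    rw [hg, Pi.neg_apply, h0, neg_neg]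
  have h2 : ∀ v, rep cs hp.isCartan w (g v) = -rep cs hp.isCartan (w * w₀) v := by
    intro v
    rw [h1, map_neg, rep_mul_apply]
  rcases exists_psi hp cs (w * w₀) with ⟨Ψ, h⟩ | h
  · exact Or.inl ⟨Ψ, (psiSet_neg h).mono fun v _ => h2 v⟩
  · exact Or.inr ⟨_, h2, h⟩

/-- **W-lemma for `²E₆`**: `θ = g ∘ rep w` -/
theorem exists_psi_left {g : (Fin 6 → ℤ) → (Fin 6 → ℤ)} (hg : ∀ v i, g v i = v (pm i)) (w : W) :
    (∃ Ψ, PsiSet hp cs (fun v => g (rep cs hp.isCartan w v)) Ψ) ∨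
      ∃ u : W, (∀ v, g (rep cs hp.isCartan w v) = -rep cs hp.isCartan u v) ∧
        ∀ x, x + rep cs hp.isCartan (u ^ 3) x + rep cs hp.isCartan (u ^ 6) x = 0 := by
  obtain ⟨w₀, h0⟩ := exists_w0 hp cs
  have h1 : ∀ v, g v = -rep cs hp.isCartan w₀ v := by
    intro v
    funext i
    rw [hg, Pi.neg_apply, h0, neg_neg]
  have h2 : ∀ v, g (rep cs hp.isCartan w v) = -rep cs hp.isCartan (w₀ * w) v := by
    intro v
    rw [h1, rep_mul_apply]
  rcases exists_psi hp cs (w₀ * w) with ⟨Ψ, h⟩ | h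
  · exact Or.inl ⟨Ψ, (psiSet_neg h).mono fun v _ => h2 v⟩
  · exact Or.inr ⟨_, h2, h⟩

end Cfsg.Agent.H378.WL.E6
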